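import Cfsg.Agent.H657.TIB.KZero
import Cfsg.Agent.H616.TI.Defs
import Cfsg.Agent.S4733

/-!
# `GoalZero` of the S4821 plan
-/

set_option autoImplicit false

open Cfsg Cfsg.Agent.H657.TIB
open scoped Pointwise

universe u

namespace Cfsg.Agent.H657.TIB

theorem goalZero : Cfsg.Agent.H616.TI.GoalZero.{u} := by
  intro G _ _ p hp M hM hTI P B hB hD
  by_cases hP1 : (P : Subgroup G) = ⊥
  · have h1 := S0908.result p M hM B hB _ hD
    rw [hP1, Subgroup.card_bot] at h1
    have h2 : blockDefect p B = 0 := by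
      by_contra h
      have := Nat.one_lt_pow h hp.out.one_lt
      omega
    have h3 := ((S4733.result p M hM B hB).2.1.1 h2).1
    have h4 : Nat.card {χ : IrrCharacter G // χ ∈ B ∧ blockHeight p B (χ : G → ℂ) = 0} ≤
        Nat.card B := by
      have := Characters.Core.finite_irr (G := G)
      refine Nat.card_le_card_of_injective (fun χ => (⟨χ.1, χ.2.1⟩ : B)) ?_
      intro x y hxy
      exact Subtype.ext (congrArg (fun z : B => (z : IrrCharacter G)) hxy)
    rw [h3] at h4
    exact h4.trans (Nat.one_le_iff_ne_zero.2 Subgroup.index_ne_zero_of_finite)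
  · refine k0_le hM P hP1 (fun g hg => ?_) B hB hD
    by_contra hne
    obtain ⟨⟨x, hx1, hx2⟩, hx⟩ := Subgroup.ne_bot_iff_exists_ne_one.1 hne
    apply hg
    have h5 : P = g • P := hTI.sylow_eq (x := x) hx1
      (show x ∈ ((g • P : Sylow p G) : Subgroup G) by
        rw [Sylow.coe_subgroup_smul]; exact hx2) (fun h => hx (Subtype.ext h))
    exact Sylow.smul_eq_iff_mem_normalizer.1 h5.symm

end Cfsg.Agent.H657.TIB
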